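import Cfsg.Agent.Lib.CharTools.ClassMult
import Cfsg.Agent.Lib.CharClifford.Extend
import Cfsg.Agent.Lib.CharClifford.Gallagher
import Cfsg.Agent.Lib.CharGalois
import Cfsg.Agent.Lib.Blichfeldt.Hall
import Mathlib.GroupTheory.Sylow

/-!
# Characters fixed by a Galois automorphism over a fixed character of a normal subgroup of odd index

If `g ↦ g ^ k` inverts the elements of odd order and fixes `θ`, exactly one character over `θ` is
fixed: the number of fixed characters over `θ` is a trace that only sees the elements of `N`.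
-/

set_option autoImplicit false
set_option linter.unusedSectionVars false
set_option linter.style.haveILetI false

open scoped ComplexConjugate

namespace Cfsg.Agent.Lib.CharGaloisOver

open Cfsg Cfsg.Agent.Lib.Char Cfsg.Agent.Lib.CharClifford

universe u

variable {G : Type u} [Group G] [Fintype G]

/-- The averaged product formula. -/
theorem sum_mul_conj_avg {χ : G → ℂ} (h : IsIrrCharacter G χ) (a b : G) :
    ∑ m : G, χ (a * (m * b * m⁻¹)) = (Nat.card G : ℂ) * (χ a * χ b) / χ 1 := by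
  classical
  set cnt : G → G → ℂ := fun c x => ∑ m : G, if m * c * m⁻¹ = x then (1 : ℂ) else 0 with hcnt
  have hcf : ∀ c, IsClassFunction G (cnt c) := fun c => by
    intro x g
    simp only [hcnt]
    refine Fintype.sum_equiv (Equiv.mulLeft g⁻¹) _ _ fun m => ?_
    refine if_congr ?_ rfl rfl
    constructor
    · intro he
      simp only [Equiv.coe_mulLeft, mul_inv_rev, inv_inv]
      calc g⁻¹ * m * c * (m⁻¹ * g) = g⁻¹ * (m * c * m⁻¹) * g := by group
        _ = g⁻¹ * (g * x * g⁻¹) * g := by rw [he]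
        _ = x := by group
    · intro he
      simp only [Equiv.coe_mulLeft, mul_inv_rev, inv_inv] at he
      rw [← he]; group
  have hs : ∀ (c : G) (φ : G → ℂ), ∑ x : G, cnt c x * φ x = ∑ m : G, φ (m * c * m⁻¹) := by
    intro c φ
    simp only [hcnt, Finset.sum_mul, ite_mul, one_mul, zero_mul]
    rw [Finset.sum_comm]
    simp
  have hcl := isClassFunction_of_isIrr h
  have h1 := CharTools.sum_pair_mul h (hcf a) (hcf b)
  have hl : ∑ x : G, ∑ y : G, cnt a x * cnt b y * χ (x * y) =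
      ∑ m : G, ∑ m' : G, χ (m * a * m⁻¹ * (m' * b * m'⁻¹)) := by
    simp only [mul_assoc (cnt a _), ← Finset.mul_sum]
    rw [hs a]
    exact Finset.sum_congr rfl fun m _ => hs b fun y => χ (m * a * m⁻¹ * y)
  rw [hl, hs a, hs b] at h1
  simp only [hcl _ _] at h1
  rw [Finset.sum_congr rfl fun m _ => show
      ∑ m' : G, χ (m * a * m⁻¹ * (m' * b * m'⁻¹)) = ∑ m' : G, χ (a * (m' * b * m'⁻¹)) from
      (Fintype.sum_equiv (Equiv.mulLeft m) _ _ fun m' => by
        rw [← hcl (a * (m' * b * m'⁻¹)) m, Equiv.coe_mulLeft]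
        congr 1
        group).symm] at h1
  simp only [Finset.sum_const, Finset.card_univ, nsmul_eq_mul, ← Nat.card_eq_fintype_card] at h1
  have hG := card_ne_zero_complex G
  refine mul_left_cancel₀ hG (h1.trans ?_)
  ring

variable (N : Subgroup G) [hN : N.Normal]

/-- The conjugates of a fixed character are fixed. -/
theorem fixed_conj {k : ℕ} {θ : N → ℂ} (hθ : ∀ n : N, θ (n ^ k) = θ n) (g : G) (n : N) :
    conjChar N g θ (n ^ k) = conjChar N g θ n := by
  simp only [conjChar_eq_comp, Function.comp_apply, map_pow, hθ]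

/-- In a group of odd order no element except `1` is conjugate to its inverse. -/
theorem eq_one_of_conj_inv {Q : Type*} [Group Q] [Finite Q] (hQ : Odd (Nat.card Q)) {x c : Q}
    (h : c * x * c⁻¹ = x⁻¹) : x = 1 := by
  have h2 : Commute (c ^ 2) x := by
    have : c ^ 2 * x * (c ^ 2)⁻¹ = x := by
      calc c ^ 2 * x * (c ^ 2)⁻¹ = c * (c * x * c⁻¹) * c⁻¹ := by rw [sq]; group
        _ = c * x⁻¹ * c⁻¹ := by rw [h]
        _ = (c * x * c⁻¹)⁻¹ := by group
        _ = x := by rw [h, inv_inv]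
    exact mul_inv_eq_iff_eq_mul.1 this
  obtain ⟨j, hj⟩ := hQ
  have hc : c = (c ^ 2) ^ (j + 1) := by
    rw [← pow_mul, show 2 * (j + 1) = Nat.card Q + 1 by omega, pow_add, pow_card_eq_one', one_mul,
      pow_one]
  have h3 : Commute c x := by rw [hc]; exact h2.pow_left _
  rw [h3.eq, mul_inv_cancel_right] at h
  have h4 : x ^ 2 = 1 := by rw [sq]; exact mul_eq_one_iff_eq_inv.2 h
  have h5 : orderOf x ∣ 1 := by
    have := Nat.dvd_gcd (orderOf_dvd_of_pow_eq_one h4) (orderOf_dvd_natCard x)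
    rwa [hj, Nat.gcd_mul_left_add_right, Nat.gcd_one_right] at this
  exact orderOf_eq_one_iff.1 (Nat.dvd_one.1 h5)

/-- Modulo a normal subgroup of odd index, the power map inverts everything. -/
theorem pow_mul_self_mem (hidx : Odd N.index) {k : ℕ}
    (hk₂ : ∀ g : G, Odd (orderOf g) → g ^ k = g⁻¹) (g : G) : g ^ k * g ∈ N := by
  obtain ⟨j, m, hm, hjm⟩ := Nat.exists_eq_two_pow_mul_odd (orderOf_pos g).ne'
  have hz : (g ^ 2 ^ j) ^ (k + 1) = 1 := by
    rw [pow_succ, hk₂ (g ^ 2 ^ j) ?_, inv_mul_cancel]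
    rw [orderOf_pow' g (pow_ne_zero _ two_ne_zero), hjm,
      Nat.gcd_eq_right (Dvd.intro m rfl), Nat.mul_div_cancel_left _ (Nat.two_pow_pos j)]
    exact hm
  rw [← QuotientGroup.eq_one_iff]
  set x : G ⧸ N := ((g ^ k * g : G) : G ⧸ N) with hx
  have h1 : x ^ 2 ^ j = 1 := by
    rw [hx, ← pow_succ, ← QuotientGroup.mk_pow, ← pow_mul, mul_comm, pow_mul, hz,
      QuotientGroup.mk_one]
  have h2 : orderOf x ∣ 1 := by
    have := Nat.dvd_gcd (orderOf_dvd_of_pow_eq_one h1) (orderOf_dvd_natCard x)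
    rwa [← Subgroup.index_eq_card,
      (Nat.Coprime.pow_left j (Nat.coprime_two_left.2 hidx)).gcd_eq_one] at this
  exact orderOf_eq_one_iff.1 (Nat.dvd_one.1 h2)

variable [Fintype N] {k : ℕ}

/-- Exactly one character over `θ` is fixed. -/
theorem existsUnique_fixed (hidx : Odd N.index) (hk : Nat.Coprime k (Nat.card G))
    (hk₂ : ∀ g : G, Odd (orderOf g) → g ^ k = g⁻¹) (θ : IrrCharacter N)
    (hθ : ∀ n : N, (θ : N → ℂ) (n ^ k) = (θ : N → ℂ) n) :
    ∃ χ : IrrCharacter G, (classInner (fun n : N => (χ : G → ℂ) n) (θ : N → ℂ) ≠ 0 ∧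
        ∀ g : G, (χ : G → ℂ) (g ^ k) = (χ : G → ℂ) g) ∧
      ∀ χ' : IrrCharacter G, classInner (fun n : N => (χ' : G → ℂ) n) (θ : N → ℂ) ≠ 0 →
        (∀ g : G, (χ' : G → ℂ) (g ^ k) = (χ' : G → ℂ) g) → χ' = χ := by
  classical
  set O := orbit N (θ : N → ℂ) with hO
  set Θ : N → ℂ := ∑ ψ ∈ O, ψ with hΘ
  have hN0 := card_ne_zero_complex N
  have hG0 := card_ne_zero_complex G
  have hθ0 := irr_degree_ne_zero θ.2
  have hOirr : ∀ ψ ∈ O, IsIrrCharacter N ψ := fun ψ hψ => by
    obtain ⟨g, rfl⟩ := (mem_orbit N).1 hψ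
    exact isIrrCharacter_conjChar N g θ.2
  have hOfix : ∀ ψ ∈ O, ∀ n : N, ψ (n ^ k) = ψ n := fun ψ hψ n => by
    obtain ⟨g, rfl⟩ := (mem_orbit N).1 hψ
    exact fixed_conj N hθ g n
  have hO1 : ∀ ψ ∈ O, ψ 1 = (θ : N → ℂ) 1 := fun ψ hψ => by
    obtain ⟨g, rfl⟩ := (mem_orbit N).1 hψ
    exact conjChar_apply_one N g _
  -- the weight
  set w : IrrCharacter G → ℂ := fun χ => (θ : N → ℂ) 1 * (Nat.card N : ℂ)⁻¹ *
    ∑ n : N, conj (Θ n) * (χ : G → ℂ) n / (χ : G → ℂ) 1 with hw
  have hwval : ∀ χ : IrrCharacter G, w χ =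
      if classInner (fun n : N => (χ : G → ℂ) n) (θ : N → ℂ) ≠ 0 then 1 else 0 := by
    intro χ
    have hsum : (Nat.card N : ℂ)⁻¹ * ∑ n : N, conj (Θ n) * (χ : G → ℂ) n =
        (O.card : ℂ) * classInner (fun n : N => (χ : G → ℂ) n) (θ : N → ℂ) := by
      have h1 : (Nat.card N : ℂ)⁻¹ * ∑ n : N, conj (Θ n) * (χ : G → ℂ) n =
          ∑ ψ ∈ O, classInner (fun n : N => (χ : G → ℂ) n) ψ := by
        simp only [classInner, hΘ, Finset.sum_apply, map_sum, Finset.sum_mul, ← Finset.mul_sum]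
        rw [Finset.sum_comm]
        exact congrArg _ (Finset.sum_congr rfl fun ψ _ => Finset.sum_congr rfl fun n _ => mul_comm _ _)
      rw [h1, Finset.sum_congr rfl fun ψ hψ => ?_, Finset.sum_const, nsmul_eq_mul]
      obtain ⟨g, rfl⟩ := (mem_orbit N).1 hψ
      conv_lhs => rw [← conjChar_restrict N (isClassFunction_of_isIrr χ.2) g]
      exact classInner_conjChar N g _ _
    rw [hw]
    simp only [← Finset.sum_div]
    rw [mul_assoc, ← mul_div_assoc, hsum]
    split_ifs with h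
    · rw [clifford_degree N χ.2 θ.2 h, ← card_orbit N _ hθ0]
      have hc : (O.card : ℂ) ≠ 0 := by
        rw [Nat.cast_ne_zero, Finset.card_ne_zero]
        exact ⟨(θ : N → ℂ), (mem_orbit N).2 ⟨1, conjChar_one N _⟩⟩
      field_simp
      exact div_self hc
    · push Not at h
      rw [h]; simp
  -- fixedness
  have hpow : ∀ χ : IrrCharacter G, classInner (fun g => (χ : G → ℂ) (g ^ k)) (χ : G → ℂ) =
      if (∀ g : G, (χ : G → ℂ) (g ^ k) = (χ : G → ℂ) g) then 1 else 0 := by
    intro χ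
    rw [classInner_irr (CharGalois.isIrrCharacter_pow hk χ.2) χ.2]
    exact if_congr ⟨fun h g => congrFun h g, funext⟩ rfl rfl
  -- the trace
  have htr : ∑ χ : IrrCharacter G,
      w χ * classInner (fun g => (χ : G → ℂ) (g ^ k)) (χ : G → ℂ) = 1 := by
    set F : G → ℂ := fun x => if hx : x ∈ N then conj (Θ ⟨x, hx⟩) else 0 with hF
    have step1 : ∀ χ : IrrCharacter G, w χ * classInner (fun g => (χ : G → ℂ) (g ^ k)) (χ : G → ℂ) =
        (θ : N → ℂ) 1 * (Nat.card N : ℂ)⁻¹ * (Nat.card G : ℂ)⁻¹ * (Nat.card G : ℂ)⁻¹ *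
          ∑ g : G, ∑ n : N, ∑ h : G,
            conj (Θ n) * ((χ : G → ℂ) ((n : G) * (h * g ^ k * h⁻¹)) * conj ((χ : G → ℂ) g)) := by
      intro χ
      have hχ0 := irr_degree_ne_zero χ.2
      simp only [← Finset.mul_sum, ← Finset.sum_mul, sum_mul_conj_avg χ.2]
      simp only [hw, classInner, Finset.mul_sum, Finset.sum_mul]
      refine Finset.sum_congr rfl fun g _ => Finset.sum_congr rfl fun n _ => ?_
      field_simp
    rw [Finset.sum_congr rfl fun χ _ => step1 χ, ← Finset.mul_sum]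
    rw [Finset.sum_comm, Finset.sum_congr rfl fun g _ => Finset.sum_comm,
      Finset.sum_congr rfl fun g _ => Finset.sum_congr rfl fun n _ => Finset.sum_comm]
    simp only [← Finset.mul_sum]
    have horth : ∀ u g : G, ∑ χ : IrrCharacter G, (χ : G → ℂ) u * conj ((χ : G → ℂ) g) =
        ∑ c : G, if c * g * c⁻¹ = u then (1 : ℂ) else 0 := by
      intro u g
      rw [CharTools.sum_irr_mul_conj' u g, Finset.sum_boole]
      split_ifs with hc
      · obtain ⟨c₀, rfl⟩ := isConj_iff.1 hc.symm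
        rw [Nat.cast_inj, ← Fintype.card_subtype, ← Nat.card_eq_fintype_card]
        exact Nat.card_congr (Equiv.subtypeEquiv (Equiv.mulLeft c₀) fun x => by
          rw [Subgroup.mem_centralizer_singleton_iff, Equiv.coe_mulLeft]
          constructor
          · intro hx
            calc c₀ * x * g * (c₀ * x)⁻¹ = c₀ * (x * g) * x⁻¹ * c₀⁻¹ := by group
              _ = c₀ * (g * x) * x⁻¹ * c₀⁻¹ := by rw [hx]
              _ = c₀ * g * c₀⁻¹ := by group
          · intro hx
            calc x * g = c₀⁻¹ * (c₀ * x * g * (c₀ * x)⁻¹) * c₀ * x := by group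
              _ = c₀⁻¹ * (c₀ * g * c₀⁻¹) * c₀ * x := by rw [hx]
              _ = g * x := by group)
      · rw [eq_comm, Nat.cast_eq_zero, Finset.card_eq_zero, Finset.filter_eq_empty_iff]
        exact fun c _ he => hc (isConj_iff.2 ⟨c, he⟩).symm
    simp only [horth]
    have step2 : ∀ g : G, ∑ n : N, conj (Θ n) *
        ∑ h : G, ∑ c : G, (if c * g * c⁻¹ = (n : G) * (h * g ^ k * h⁻¹) then (1 : ℂ) else 0) =
          ∑ h : G, ∑ c : G, F (c * g * c⁻¹ * (h * g ^ k * h⁻¹)⁻¹) := by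
      intro g
      simp only [Finset.mul_sum, mul_ite, mul_one, mul_zero]
      rw [Finset.sum_comm]
      refine Finset.sum_congr rfl fun h _ => ?_
      rw [Finset.sum_comm]
      refine Finset.sum_congr rfl fun c _ => ?_
      simp only [hF]
      split_ifs with hx
      · rw [Finset.sum_eq_single (⟨_, hx⟩ : N)]
        · rw [if_pos (by group)]
        · intro n _ hn
          rw [if_neg]
          intro he
          exact hn (Subtype.ext (eq_mul_inv_of_mul_eq he.symm))
        · exact fun h => absurd (Finset.mem_univ _) h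
      · refine Finset.sum_eq_zero fun n _ => if_neg fun he => hx ?_
        rw [he, mul_inv_cancel_right]
        exact n.2
    simp only [step2]
    -- only `g ∈ N` contributes
    have hodd : Odd (Nat.card (G ⧸ N)) := by rwa [← Subgroup.index_eq_card]
    have hout : ∀ g : G, g ∉ N → ∑ h : G, ∑ c : G, F (c * g * c⁻¹ * (h * g ^ k * h⁻¹)⁻¹) = 0 := by
      intro g hg
      refine Finset.sum_eq_zero fun h _ => Finset.sum_eq_zero fun c _ => ?_
      simp only [hF]
      rw [dif_neg]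
      intro hmem
      refine hg ?_
      rw [← QuotientGroup.eq_one_iff] at hmem ⊢
      have hk' : ((g ^ k : G) : G ⧸ N) = ((g : G) : G ⧸ N)⁻¹ := by
        rw [eq_inv_iff_mul_eq_one, ← QuotientGroup.mk_mul, QuotientGroup.eq_one_iff]
        exact pow_mul_self_mem N hidx hk₂ g
      simp only [QuotientGroup.mk_mul, QuotientGroup.mk_inv, hk', mul_inv_eq_one] at hmem
      refine eq_one_of_conj_inv hodd (c := ((h : G ⧸ N))⁻¹ * (c : G ⧸ N)) ?_
      calc (h : G ⧸ N)⁻¹ * c * g * ((h : G ⧸ N)⁻¹ * c)⁻¹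
          = (h : G ⧸ N)⁻¹ * ((c : G ⧸ N) * g * (c : G ⧸ N)⁻¹) * (h : G ⧸ N) := by group
        _ = (h : G ⧸ N)⁻¹ * ((h : G ⧸ N) * (g : G ⧸ N)⁻¹ * (h : G ⧸ N)⁻¹) * (h : G ⧸ N) := by
          rw [hmem]
        _ = (g : G ⧸ N)⁻¹ := by group
    rw [← Finset.sum_subset (Finset.subset_univ (Finset.univ.filter (· ∈ N)))
      (fun g _ hg => hout g fun h => hg (Finset.mem_filter.2 ⟨Finset.mem_univ _, h⟩)),
      Finset.sum_subtype (p := fun g => g ∈ N) _ (fun x => by simp)]
    -- the value on `N`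
    have hFclass : ∀ x h : G, F (h * x * h⁻¹) = F x := by
      intro x h
      by_cases hx : x ∈ N
      · simp only [hF, dif_pos hx, dif_pos (hN.conj_mem x hx h)]
        congr 1
        simp only [hΘ, Finset.sum_apply]
        refine Finset.sum_bij (fun ψ _ => conjChar N h ψ) ?_ ?_ ?_ ?_
        · intro ψ hψ
          obtain ⟨g, rfl⟩ := (mem_orbit N).1 hψ
          rw [← conjChar_mul]; exact (mem_orbit N).2 ⟨_, rfl⟩
        · intro ψ _ ψ' _ he
          have := congrArg (conjChar N h⁻¹) he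
          rwa [← conjChar_mul, ← conjChar_mul, mul_inv_cancel, conjChar_one, conjChar_one] at this
        · intro ψ hψ
          obtain ⟨g, rfl⟩ := (mem_orbit N).1 hψ
          refine ⟨conjChar N (g * h⁻¹) θ, (mem_orbit N).2 ⟨_, rfl⟩, ?_⟩
          rw [← conjChar_mul, inv_mul_cancel_right]
        · intro ψ _
          rw [conjChar_apply]
      · simp only [hF, dif_neg hx]
        rw [dif_neg]
        intro hc
        exact hx (by simpa [mul_assoc] using hN.conj_mem _ hc h⁻¹)
    have step3 : ∀ g : N, ∑ h : G, ∑ c : G, F (c * g * c⁻¹ * (h * (g : G) ^ k * h⁻¹)⁻¹) =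
        (Nat.card G : ℂ) * ∑ c : G, F (c * (g : G) * c⁻¹ * ((g : G) ^ k)⁻¹) := by
      intro g
      rw [Finset.sum_congr rfl fun h _ => show
        ∑ c : G, F (c * g * c⁻¹ * (h * (g : G) ^ k * h⁻¹)⁻¹) =
          ∑ c : G, F (c * (g : G) * c⁻¹ * ((g : G) ^ k)⁻¹) from
        (Fintype.sum_equiv (Equiv.mulLeft h) _ _ fun c => by
          rw [← hFclass (c * (g : G) * c⁻¹ * ((g : G) ^ k)⁻¹) h, Equiv.coe_mulLeft]
          congr 1
          group).symm,
        Finset.sum_const, Finset.card_univ, nsmul_eq_mul, Nat.card_eq_fintype_card]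
    simp only [step3, ← Finset.mul_sum]
    rw [Finset.sum_comm]
    have step4 : ∀ c : G, ∑ m : N, ∑ g : N, F ((m : G) * c * g * ((m : G) * c)⁻¹ * ((g : G) ^ k)⁻¹) =
        ∑ g : N, ∑ ψ ∈ O, (Nat.card N : ℂ) *
          (ψ (g ^ k) * conj (conjChar N c ψ g)) / (θ : N → ℂ) 1 := by
      intro c
      rw [Finset.sum_comm]
      refine Finset.sum_congr rfl fun g _ => ?_
      set B : N := ⟨c * g * c⁻¹, hN.conj_mem g g.2 c⟩ with hB
      have hm : ∀ m : N, (m : G) * c * g * ((m : G) * c)⁻¹ * ((g : G) ^ k)⁻¹ =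
          ((m * B * m⁻¹ * (g ^ k)⁻¹ : N) : G) := fun m => by
        simp [hB, mul_assoc]
      simp only [hm, hF, SetLike.coe_mem, dif_pos, Subtype.coe_eta, hΘ, Finset.sum_apply, map_sum]
      rw [Finset.sum_comm]
      refine Finset.sum_congr rfl fun ψ hψ => ?_
      have hψc := isCharacter_of_isIrr (hOirr ψ hψ)
      simp only [← char_inv hψc, mul_inv_rev, inv_inv]
      rw [Finset.sum_congr rfl fun (m : N) _ => show
        ψ (g ^ k * (m * (B⁻¹ * m⁻¹))) = ψ (g ^ k * (m * B⁻¹ * m⁻¹)) by rw [mul_assoc m],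
        sum_mul_conj_avg (hOirr ψ hψ), hO1 ψ hψ, char_inv hψc B, conjChar_apply]
    have step5 : ∀ c : G, ∑ g : N, ∑ ψ ∈ O, (Nat.card N : ℂ) *
        (ψ (g ^ k) * conj (conjChar N c ψ g)) / (θ : N → ℂ) 1 =
        ∑ ψ ∈ O, (Nat.card N : ℂ) * (Nat.card N : ℂ) *
          (if c ∈ inertia N ψ then 1 else 0) / (θ : N → ℂ) 1 := by
      intro c
      rw [Finset.sum_comm]
      refine Finset.sum_congr rfl fun ψ hψ => ?_
      have h := classInner_irr (hOirr ψ hψ) (isIrrCharacter_conjChar N c (hOirr ψ hψ))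
      rw [classInner, inv_mul_eq_iff_eq_mul₀ hN0] at h
      rw [← Finset.sum_div, ← Finset.mul_sum,
        Finset.sum_congr rfl fun g _ => by rw [hOfix ψ hψ g], h, mem_inertia]
      rw [show (if ψ = conjChar N c ψ then (1 : ℂ) else 0) =
        if conjChar N c ψ = ψ then (1 : ℂ) else 0 from if_congr eq_comm rfl rfl]
      rw [← mul_assoc]
      congr 2
      split_ifs <;> rfl
    have havg : (Nat.card N : ℂ) * ∑ c : G, ∑ g : N, F (c * (g : G) * c⁻¹ * ((g : G) ^ k)⁻¹) =
        (Nat.card N : ℂ) * (Nat.card N : ℂ) * (Nat.card G : ℂ) / (θ : N → ℂ) 1 := by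
      have h1 : (Nat.card N : ℂ) * ∑ c : G, ∑ g : N, F (c * (g : G) * c⁻¹ * ((g : G) ^ k)⁻¹) =
          ∑ c : G, ∑ m : N, ∑ g : N,
            F ((m : G) * c * g * ((m : G) * c)⁻¹ * ((g : G) ^ k)⁻¹) := by
        conv_rhs => rw [Finset.sum_comm]
        rw [Finset.sum_congr rfl fun (m : N) _ => show
          (∑ c : G, ∑ g : N, F ((m : G) * c * g * ((m : G) * c)⁻¹ * ((g : G) ^ k)⁻¹)) =
            ∑ c : G, ∑ g : N, F (c * (g : G) * c⁻¹ * ((g : G) ^ k)⁻¹) from
          Fintype.sum_equiv (Equiv.mulLeft (m : G)) _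
            (fun c => ∑ g : N, F (c * (g : G) * c⁻¹ * ((g : G) ^ k)⁻¹)) fun c => rfl,
          Finset.sum_const, Finset.card_univ, nsmul_eq_mul, Nat.card_eq_fintype_card]
      rw [h1, Finset.sum_congr rfl fun c _ => step4 c, Finset.sum_congr rfl fun c _ => step5 c,
        Finset.sum_comm]
      simp only [← Finset.sum_div, ← Finset.mul_sum, Finset.sum_boole]
      have hcard : ∑ ψ ∈ O, ((Finset.univ.filter fun c : G => c ∈ inertia N ψ).card : ℂ) =
          (Nat.card G : ℂ) := by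
        have hT : ∀ ψ ∈ O, (Finset.univ.filter fun c : G => c ∈ inertia N ψ).card * O.card =
            Nat.card G := by
          intro ψ hψ
          obtain ⟨g, hg⟩ := (mem_orbit N).1 hψ
          have hor : orbit N ψ = O := by
            ext φ
            rw [mem_orbit, hO, mem_orbit, ← hg]
            constructor
            · rintro ⟨a, rfl⟩
              exact ⟨g * a, conjChar_mul N g a _⟩
            · rintro ⟨a, rfl⟩
              exact ⟨g⁻¹ * a, by rw [← conjChar_mul, mul_inv_cancel_left]⟩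
          have h0 : ψ 1 ≠ 0 := by rw [hO1 ψ hψ]; exact hθ0
          rw [← hor, card_orbit N ψ h0, ← Subgroup.card_mul_index (inertia N ψ),
            Nat.card_eq_fintype_card, Fintype.card_subtype]
        have hOne : (O.card : ℂ) ≠ 0 := by
          rw [Nat.cast_ne_zero, Finset.card_ne_zero]
          exact ⟨(θ : N → ℂ), (mem_orbit N).2 ⟨1, conjChar_one N _⟩⟩
        refine mul_right_cancel₀ hOne ?_
        rw [Finset.sum_mul, Finset.sum_congr rfl fun ψ hψ => show
          ((Finset.univ.filter fun c : G => c ∈ inertia N ψ).card : ℂ) * (O.card : ℂ) =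
            (Nat.card G : ℂ) by exact_mod_cast hT ψ hψ, Finset.sum_const, nsmul_eq_mul, mul_comm]
      rw [hcard]
    have hX := mul_left_cancel₀ hN0 (havg.trans
      (show _ = (Nat.card N : ℂ) * ((Nat.card N : ℂ) * (Nat.card G : ℂ) / (θ : N → ℂ) 1) by ring))
    rw [hX]
    field_simp
  -- conclusion
  have hcount : (Finset.univ.filter fun χ : IrrCharacter G =>
      classInner (fun n : N => (χ : G → ℂ) n) (θ : N → ℂ) ≠ 0 ∧
        ∀ g : G, (χ : G → ℂ) (g ^ k) = (χ : G → ℂ) g).card = 1 := by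
    rw [← Nat.cast_inj (R := ℂ), Nat.cast_one, ← htr, Finset.natCast_card_filter]
    refine Finset.sum_congr rfl fun χ _ => ?_
    rw [hwval, hpow]
    by_cases ha : classInner (fun n : N => (χ : G → ℂ) n) (θ : N → ℂ) ≠ 0
    · by_cases hb : ∀ g : G, (χ : G → ℂ) (g ^ k) = (χ : G → ℂ) g
      · rw [if_pos ⟨ha, hb⟩, if_pos ha, if_pos hb, mul_one]
      · rw [if_neg fun h => hb h.2, if_neg hb, mul_zero]
    · rw [if_neg fun h => ha h.1, if_neg ha, zero_mul]
  obtain ⟨χ, hχ⟩ := Finset.card_eq_one.1 hcount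
  have hmem := fun ψ => (Finset.ext_iff.1 hχ ψ)
  simp only [Finset.mem_filter, Finset.mem_univ, true_and, Finset.mem_singleton] at hmem
  exact ⟨χ, (hmem χ).2 rfl, fun ψ h1 h2 => (hmem ψ).1 ⟨h1, h2⟩⟩

/-- An extension can be twisted to a fixed one. -/
theorem exists_fixed_of_extension (hidx : Odd N.index) (hk : Nat.Coprime k (Nat.card G))
    (hk₂ : ∀ g : G, Odd (orderOf g) → g ^ k = g⁻¹) {θ : N → ℂ} (hθi : IsIrrCharacter N θ)
    (hθ : ∀ n : N, θ (n ^ k) = θ n) {χ₀ : G → ℂ} (h₀ : IsIrrCharacter G χ₀)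
    (hres : ∀ n : N, χ₀ n = θ n) :
    ∃ χ : G → ℂ, IsIrrCharacter G χ ∧ (∀ n : N, χ n = θ n) ∧ ∀ g : G, χ (g ^ k) = χ g := by
  obtain ⟨l, hl, hle⟩ := extension_unique_mul_linear N hθi h₀ hres
    (CharGalois.isIrrCharacter_pow hk h₀) (fun n => by
      have := hres (n ^ k)
      rw [Subgroup.coe_pow, hθ] at this
      exact this)
  obtain ⟨j, hj⟩ := hidx
  set μ : G →* ℂˣ := l ^ (j + 1) with hμ
  have hμN : ∀ n : N, μ n = 1 := fun n => by rw [hμ, MonoidHom.pow_apply, hl, one_pow]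
  have hsq : ∀ g, μ g * μ g = l g := fun g => by
    rw [hμ, MonoidHom.pow_apply, ← pow_add, show j + 1 + (j + 1) = N.index + 1 by omega,
      pow_succ, apply_pow_index_eq_one l hl g, one_mul]
  refine ⟨fun g => (μ g : ℂ) * χ₀ g, isIrrCharacter_linear_mul h₀ μ, fun n => ?_, fun g => ?_⟩
  · show (μ (n : G) : ℂ) * χ₀ n = θ n
    rw [hμN n, Units.val_one, one_mul, hres]
  · have hinv : μ (g ^ k) * μ g = 1 := by
      rw [← map_mul]
      exact hμN ⟨_, pow_mul_self_mem N ⟨j, hj⟩ hk₂ g⟩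
    show (μ (g ^ k) : ℂ) * χ₀ (g ^ k) = (μ g : ℂ) * χ₀ g
    rw [show χ₀ (g ^ k) = (l g : ℂ) * χ₀ g from congrFun hle g, ← mul_assoc, ← Units.val_mul,
      ← hsq g, ← mul_assoc, hinv, one_mul]

theorem odd_of_coprime_two {n : ℕ} (h : Odd n) : ∀ m, m ∣ n → Odd m := fun _ hm => h.of_dvd_nat hm

/-- An invariant fixed character extends to a fixed one, for quotients of prime-power order. -/
theorem exists_fixed_extension_primePow {q : ℕ} [hq : Fact q.Prime] (n : ℕ) :
    ∀ {A : Type u} [Group A] [Fintype A] (B : Subgroup A) [B.Normal] [Fintype B],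
      B.index = q ^ n → Odd B.index → Nat.Coprime k (Nat.card A) →
      (∀ g : A, Odd (orderOf g) → g ^ k = g⁻¹) →
      ∀ θ : IrrCharacter B, (∀ g : A, conjChar B g (θ : B → ℂ) = (θ : B → ℂ)) →
      (∀ b : B, (θ : B → ℂ) (b ^ k) = (θ : B → ℂ) b) →
      ∃ χ : A → ℂ, IsIrrCharacter A χ ∧ (∀ b : B, χ b = (θ : B → ℂ) b) ∧
        ∀ g : A, χ (g ^ k) = χ g := by
  induction n with
  | zero =>
    intro A _ _ B _ _ hB _ _ _ θ _ hθ
    have hall : ∀ a : A, a ∈ B := fun a => by
      rw [Subgroup.index_eq_one.1 (show B.index = 1 by simpa using hB)]; trivial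
    refine ⟨(θ : B → ℂ) ∘ (MonoidHom.id A).codRestrict B hall,
      isIrrCharacter_comp θ.2 _ fun b => ⟨b, Subtype.ext rfl⟩, fun b => rfl, fun g => ?_⟩
    simp only [Function.comp_apply, map_pow, hθ]
  | succ n ih =>
    intro A _ _ B _ _ hB hodd hk hk₂ θ hinv hθ
    classical
    haveI : Nontrivial (A ⧸ B) := by
      rw [← Finite.one_lt_card_iff_nontrivial, ← Subgroup.index_eq_card, hB]
      exact Nat.one_lt_pow (Nat.succ_ne_zero n) hq.out.one_lt
    haveI : Group.IsNilpotent (A ⧸ B) :=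
      (IsPGroup.of_card (n := n + 1) (p := q) (by rw [← Subgroup.index_eq_card, hB])).isNilpotent
    obtain ⟨R₀, hR₀, hR₀p⟩ :=
      Blichfeldt.exists_normal_prime_index
        (Group.IsSolvable.commutator_lt_top_of_nontrivial (A ⧸ B)).ne
    set R := R₀.comap (QuotientGroup.mk' B) with hR
    haveI : R.Normal := hR₀.comap _
    have hBR : B ≤ R := fun b hb => by
      rw [hR, Subgroup.mem_comap, QuotientGroup.mk'_apply, (QuotientGroup.eq_one_iff b).2 hb]
      exact one_mem _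
    have hRi : R.index = R₀.index :=
      Subgroup.index_comap_of_surjective _ (QuotientGroup.mk'_surjective B)
    have hmul := Subgroup.relIndex_mul_index hBR
    have hRq : R.index = q := by
      rw [hRi] at hmul ⊢
      exact (Nat.prime_dvd_prime_iff_eq hR₀p hq.out).1
        (hR₀p.dvd_of_dvd_pow (show R₀.index ∣ q ^ (n + 1) by
          rw [← hB]; exact ⟨B.relIndex R, by rw [mul_comm]; exact hmul.symm⟩))
    have hBRi : (B.subgroupOf R).index = q ^ n := by
      refine Nat.eq_of_mul_eq_mul_right hq.out.pos ?_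
      rw [← pow_succ, ← hB, ← hmul, hRq]
      rfl
    haveI : (B.subgroupOf R).Normal := (inferInstance : B.Normal).subgroupOf R
    haveI := Fintype.ofFinite R
    haveI := Fintype.ofFinite (B.subgroupOf R)
    let e := Subgroup.subgroupOfEquivOfLe hBR
    set θ' : IrrCharacter (B.subgroupOf R) :=
      ⟨(θ : B → ℂ) ∘ e, isIrrCharacter_comp θ.2 e.toMonoidHom e.surjective⟩ with hθ'
    have hoddR : Odd (B.subgroupOf R).index := hodd.of_dvd_nat (by rw [hB, hBRi]; exact pow_dvd_pow q (Nat.le_succ n))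
    have hkR : Nat.Coprime k (Nat.card R) :=
      hk.coprime_dvd_right (Subgroup.card_subgroup_dvd_card R)
    have hk₂R : ∀ g : R, Odd (orderOf g) → g ^ k = g⁻¹ := fun g hg =>
      Subtype.ext (by simpa using hk₂ g (by rwa [Subgroup.orderOf_coe]))
    have hθ'fix : ∀ b, (θ' : B.subgroupOf R → ℂ) (b ^ k) = (θ' : B.subgroupOf R → ℂ) b := fun b => by
      show (θ : B → ℂ) (e (b ^ k)) = (θ : B → ℂ) (e b)
      rw [map_pow, hθ]
    obtain ⟨η, hη, hηres, hηfix⟩ := ih (B.subgroupOf R) hBRi hoddR hkR hk₂R θ'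
      (fun g => funext fun b => by
        show (θ : B → ℂ) (e _) = (θ : B → ℂ) (e b)
        exact congrFun (hinv (g : A)) (e b)) hθ'fix
    obtain ⟨_, -, huniq⟩ := existsUnique_fixed (B.subgroupOf R) hoddR hkR hk₂R θ' hθ'fix
    have hne : ∀ ξ : R → ℂ, (∀ b : B.subgroupOf R, ξ b = (θ' : B.subgroupOf R → ℂ) b) →
        classInner (fun b : B.subgroupOf R => ξ b) (θ' : B.subgroupOf R → ℂ) ≠ 0 := fun ξ h => by
      rw [funext h, classInner_irr_self θ'.2]; exact one_ne_zero
    have hηinv : ∀ g : A, conjChar R g η = η := fun g => by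
      have h1 : ∀ b : B.subgroupOf R, conjChar R g η b = (θ' : B.subgroupOf R → ℂ) b := fun b => by
        have hmem : g * ((b : R) : A) * g⁻¹ ∈ B :=
          (inferInstance : B.Normal).conj_mem _ b.2 g
        have h2 := hηres ⟨⟨_, hBR hmem⟩, hmem⟩
        refine (conjChar_apply R g η b).trans (h2.trans ?_)
        exact congrFun (hinv g) (e b)
      have h2 := huniq ⟨η, hη⟩ (hne η hηres) hηfix
      have h3 := huniq ⟨_, isIrrCharacter_conjChar R g hη⟩ (hne _ h1) (fixed_conj R hηfix g)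
      exact congrArg Subtype.val (h3.trans h2.symm)
    have hcyc : IsCyclic (A ⧸ R) := isCyclic_of_prime_card (p := q) (by rw [← Subgroup.index_eq_card, hRq])
    obtain ⟨χ₀, h₀, h₀res⟩ := extends_of_cyclic hη hηinv hcyc
    exact exists_fixed_of_extension B hodd hk hk₂ θ.2 hθ h₀ fun b =>
      (h₀res ⟨b, hBR b.2⟩).trans (hηres ⟨⟨b, hBR b.2⟩, b.2⟩)

/-- An invariant fixed character extends to a fixed one. -/
theorem exists_fixed_extension (hidx : Odd N.index) (hk : Nat.Coprime k (Nat.card G))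
    (hk₂ : ∀ g : G, Odd (orderOf g) → g ^ k = g⁻¹) (θ : IrrCharacter N)
    (hinv : ∀ g : G, conjChar N g (θ : N → ℂ) = (θ : N → ℂ))
    (hθ : ∀ n : N, (θ : N → ℂ) (n ^ k) = (θ : N → ℂ) n) :
    ∃ χ : G → ℂ, IsIrrCharacter G χ ∧ (∀ n : N, χ n = (θ : N → ℂ) n) ∧
      ∀ g : G, χ (g ^ k) = χ g := by
  classical
  obtain ⟨χ₀, h₀, hres⟩ := extends_of_local θ.2 hinv fun q hq => by
    haveI := Fact.mk hq
    obtain ⟨P⟩ := (inferInstance : Nonempty (Sylow q (G ⧸ N)))
    set H := (P : Subgroup (G ⧸ N)).comap (QuotientGroup.mk' N) with hH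
    have hNH : N ≤ H := fun b hb => by
      rw [hH, Subgroup.mem_comap, QuotientGroup.mk'_apply, (QuotientGroup.eq_one_iff b).2 hb]
      exact one_mem _
    have hHi : H.index = (P : Subgroup (G ⧸ N)).index :=
      Subgroup.index_comap_of_surjective _ (QuotientGroup.mk'_surjective N)
    have hPc := P.card_eq_multiplicity
    haveI : (N.subgroupOf H).Normal := hN.subgroupOf H
    haveI := Fintype.ofFinite H
    haveI := Fintype.ofFinite (N.subgroupOf H)
    have hrel : (N.subgroupOf H).index = Nat.card (P : Subgroup (G ⧸ N)) := by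
      have h1 := Subgroup.relIndex_mul_index hNH
      rw [hHi, Subgroup.index_eq_card N, ← Subgroup.card_mul_index (P : Subgroup (G ⧸ N))] at h1
      exact Nat.eq_of_mul_eq_mul_right (Nat.pos_of_ne_zero Subgroup.index_ne_zero_of_finite) h1
    let e := Subgroup.subgroupOfEquivOfLe hNH
    obtain ⟨η, hη, hηres, -⟩ := exists_fixed_extension_primePow (q := q) (k := k) _
      (N.subgroupOf H) (hrel.trans hPc)
      (hidx.of_dvd_nat (Subgroup.relIndex_dvd_index_of_normal N H))
      (hk.coprime_dvd_right (Subgroup.card_subgroup_dvd_card H))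
      (fun g hg => Subtype.ext (by simpa using hk₂ g (by rwa [Subgroup.orderOf_coe])))
      ⟨(θ : N → ℂ) ∘ e, isIrrCharacter_comp θ.2 e.toMonoidHom e.surjective⟩
      (fun g => funext fun b => congrFun (hinv (g : G)) (e b))
      (fun b => by
        show (θ : N → ℂ) (e (b ^ k)) = (θ : N → ℂ) (e b)
        rw [map_pow, hθ])
    exact ⟨H, hNH, η, hHi ▸ (Nat.Coprime.symm ((hq.coprime_iff_not_dvd).2 P.not_dvd_index)), hη,
      fun n => hηres ⟨⟨n, hNH n.2⟩, n.2⟩⟩
  exact exists_fixed_of_extension N hidx hk hk₂ θ.2 hθ h₀ hres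

end Cfsg.Agent.Lib.CharGaloisOver
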