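import Cfsg.Agent.Lib.CharGaloisOver.PResidual
import Cfsg.Agent.Lib.Block.OverPPrime
import Cfsg.Agent.S4550

/-!
# Fixed characters of odd degree outside the linear ones

A Galois automorphism of `2`-power order fixing the roots of unity of odd order fixes an even number
of the odd degree members of the principal `2`-block of the `2`-residual, among them an odd number
of linear ones; the canonical extension of one of the others is fixed as well.
-/

set_option autoImplicit false
set_option linter.unusedSectionVars false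
set_option linter.style.haveILetI false

namespace Cfsg.Agent.Lib.CharGaloisOver

open Cfsg Cfsg.Agent.Lib Cfsg.Agent.Lib.Char Cfsg.Agent.Lib.CharClifford
open scoped ComplexConjugate

universe u

variable {G : Type u} [Group G] [Finite G]

/-- The canonical fixed extension from the residual, without an assumption on the quotient. -/
theorem exists_fixed_ext_coprime {p : ℕ} [hp : Fact p.Prime] {N : Subgroup G} [hN : N.Normal]
    (hNres : N = pResidual p G) {k : ℕ}
    (hk₁ : ∀ g : G, (∃ j : ℕ, orderOf g = p ^ j) → g ^ k = g ^ (1 + p))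
    (hk₂ : ∀ g : G, Nat.Coprime (orderOf g) p → g ^ k = g) (θ : IrrCharacter N)
    (hd : ¬ p ∣ charDegree (θ : N → ℂ)) (hinv : ∀ g : G, conjChar N g (θ : N → ℂ) = (θ : N → ℂ))
    (hfix : ∀ n : N, (θ : N → ℂ) (n ^ k) = (θ : N → ℂ) n) :
    ∃ χ : G → ℂ, IsIrrCharacter G χ ∧ (∀ n : N, χ n = (θ : N → ℂ) n) ∧
      ∀ g : G, χ (g ^ k) = χ g := by
  classical
  obtain ⟨a, ha⟩ : ∃ a : ℕ, N.index = p ^ a := index_eq_pow hNres
  have hk := coprime_of_power hk₁ hk₂
  obtain ⟨b, m, hm, hbm⟩ := Nat.exists_eq_pow_mul_and_not_dvd (Nat.card_pos (α := G)).ne' p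
    hp.out.ne_one
  -- the determinant of `θ` has order prime to `p`
  obtain ⟨d, ρ, hρ, hρc, -, hdet⟩ := exists_detHom θ.2
  set φ : N →* ℂˣ := detHom ρ with hφ
  have hφm : ∀ n : N, φ n ^ m = 1 := by
    have htop : pResidual p N = ⊤ := by subst hNres; exact Transfer.pResidual_pResidual
    have hle : (⊤ : Subgroup N) ≤ ((powMonoidHom m).comp φ).ker := by
      rw [← htop]
      refine (Subgroup.closure_le _).2 fun g hg => ?_
      have h1 : orderOf g ∣ p ^ b * m :=
        hbm ▸ ((orderOf_dvd_natCard g).trans (Subgroup.card_subgroup_dvd_card N))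
      have hgm : orderOf g ∣ m := (Nat.Coprime.pow_right b hg).dvd_of_dvd_mul_left h1
      show φ g ^ m = 1
      rw [← map_pow, orderOf_dvd_iff_pow_eq_one.1 hgm, map_one]
    exact fun n => hle (Subgroup.mem_top n)
  have hordφ : Nat.Coprime N.index (orderOf φ) := by
    rw [ha]
    refine Nat.Coprime.coprime_dvd_right (orderOf_dvd_of_pow_eq_one (MonoidHom.ext fun n => ?_))
      (((hp.out.coprime_iff_not_dvd.2 hm)).pow_left a)
    rw [MonoidHom.pow_apply, hφm]
    rfl
  have hφinv : ∀ (g : G) (n : N), φ ⟨g * n * g⁻¹, hN.conj_mem (n : G) n.2 g⟩ = φ n := by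
    intro g n
    apply Units.ext
    let ρ' : Representation ℂ N (Fin d → ℂ) := ρ.comp (MulAut.conjNormal g).toMonoidHom
    haveI := hρ
    have hch : ρ'.character = (θ : N → ℂ) := by
      funext x
      have := congrFun (hinv g) x
      rw [conjChar_eq_comp] at this
      rw [← this, ← hρc]
      rfl
    haveI : ρ'.IsIrreducible := isIrreducible_of_isIrrCharacter ρ' (hch ▸ θ.2)
    have h1 := congrFun (detChar_character ρ') n
    rw [hch, hdet] at h1
    rw [hφ]
    refine Eq.trans ?_ h1.symm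
    rw [detHom_apply]
    have he : (⟨g * n * g⁻¹, hN.conj_mem (n : G) n.2 g⟩ : N) = MulAut.conjNormal g n :=
      Subtype.ext (by simp [MulAut.conjNormal_apply])
    rw [he]
    rfl
  obtain ⟨μ, hμN, hμord, -⟩ := exists_extension_coprime φ hφinv hordφ
  have hd1 : (θ : N → ℂ) 1 = charDegree (θ : N → ℂ) :=
    apply_one_eq_charDegree (isCharacter_of_isIrr θ.2)
  have hcopN : Nat.Coprime N.index (charDegree (θ : N → ℂ)) := by
    rw [ha]
    exact ((hp.out.coprime_iff_not_dvd.2 hd)).pow_left a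
  have hμθ : ∀ n : N, (μ n : ℂ) = detChar (θ : N → ℂ) n := fun n => by
    rw [hμN, hdet]
  have hext := extends_of_det θ.2 hinv _ hd1 hcopN μ hμθ
  obtain ⟨χ, ⟨hχ, hχN, hχdet⟩, huniq⟩ :=
    existsUnique_extension_det θ.2 _ hd1 hcopN hext μ hμθ
  have hμm : ∀ g : G, μ g ^ m = 1 := fun g => by
    obtain ⟨c, hc⟩ : orderOf μ ∣ m := by
      rw [hμord]
      exact orderOf_dvd_of_pow_eq_one (MonoidHom.ext fun n => by
        rw [MonoidHom.pow_apply, hφm]; rfl)
    rw [hc, pow_mul, hom_apply_pow_orderOf, one_pow]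
  refine ⟨χ, hχ, hχN, fun g => congrFun (huniq (fun x => χ (x ^ k))
    ⟨CharGalois.isIrrCharacter_pow hk hχ, fun n => ?_, funext fun x => ?_⟩) g⟩
  · show χ ((n : G) ^ k) = _
    rw [← Subgroup.coe_pow, hχN, hfix]
  · rw [detChar_pow hk hχ, hχdet, ← Units.val_pow_eq_pow_val]
    congr 1
    -- `μ` is trivial on `p`-elements, and the power is the identity on the others
    obtain ⟨e, he1, he0⟩ := Nat.chineseRemainder
      (((hp.out.coprime_iff_not_dvd.2 hm).symm).pow_right b) 1 0
    obtain ⟨c, hc⟩ := Nat.modEq_zero_iff_dvd.1 he0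
    have hxe : μ (x ^ e) = μ x := by
      rw [map_pow]
      conv_rhs => rw [← pow_one (μ x)]
      exact pow_eq_pow_iff_modEq.2
        (Nat.ModEq.of_dvd (orderOf_dvd_of_pow_eq_one (hμm x)) he1)
    have hcard : (x ^ e) ^ m = 1 := by
      rw [← pow_mul, hc, show p ^ b * c * m = Nat.card G * c by rw [hbm]; ring, pow_mul,
        pow_card_eq_one', one_pow]
    rw [← hxe, ← map_pow, hk₂ _ (Nat.Coprime.coprime_dvd_left (orderOf_dvd_of_pow_eq_one hcard)
      (hp.out.coprime_iff_not_dvd.2 hm).symm)]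

variable {M : Ideal AlgInt} [M.IsPrime]

/-- Translating by a power prime to the order preserves the principal block. -/
theorem pow_mem_principal {k : ℕ} (hk : Nat.Coprime k (Nat.card G)) {χ : IrrCharacter G}
    (h : χ ∈ principalBlock M G) :
    (⟨fun g => (χ : G → ℂ) (g ^ k), CharGalois.isIrrCharacter_pow hk χ.2⟩ : IrrCharacter G) ∈
      principalBlock M G := fun g => by
  have hcen : Subgroup.centralizer ({g ^ k} : Set G) = Subgroup.centralizer ({g} : Set G) := by
    ext y
    rw [Subgroup.mem_centralizer_singleton_iff, Subgroup.mem_centralizer_singleton_iff]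
    refine ⟨fun h => ?_, fun h => ((show Commute y g from h).pow_right k).eq⟩
    obtain ⟨m, hm⟩ := exists_pow_eq_self_of_coprime
      (hk.coprime_dvd_right (orderOf_dvd_natCard g))
    rw [← hm]
    exact ((show Commute y (g ^ k) from h).pow_right m).eq
  have h' := h (g ^ k)
  simp only [Cfsg.centralChar, hcen, one_pow] at h' ⊢
  exact h'

theorem charDegree_pow_fun (k : ℕ) (χ : G → ℂ) :
    charDegree (fun g => χ (g ^ k)) = charDegree χ := by
  simp [charDegree]

/-- A set of linear characters closed under powers prime to the order has odd size when it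
contains the trivial one and the group has no quotient of order two. -/
theorem odd_linear_closed (htop : pResidual 2 G = ⊤) (P : IrrCharacter G → Prop)
    (h1 : P (Block.oneIrr G)) (hlin : ∀ χ : IrrCharacter G, P χ → charDegree (χ : G → ℂ) = 1)
    (hcl : ∀ (j : ℕ) (hj : Nat.Coprime j (Nat.card G)) (χ : IrrCharacter G), P χ →
      P ⟨fun g => (χ : G → ℂ) (g ^ j), CharGalois.isIrrCharacter_pow hj χ.2⟩) :
    Odd (Nat.card {χ : IrrCharacter G // P χ}) := by
  classical
  haveI : Fact (Nat.Prime 2) := ⟨Nat.prime_two⟩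
  haveI := Fintype.ofFinite G
  have hn : Nat.Coprime (2 * Nat.card G - 1) (Nat.card G) := by
    have hG := Nat.card_pos (α := G)
    refine Nat.coprime_of_dvd fun q hq hq1 hq2 => ?_
    have h2 : q ∣ 2 * Nat.card G := hq2.mul_left 2
    have := Nat.dvd_sub h2 hq1
    rw [show 2 * Nat.card G - (2 * Nat.card G - 1) = 1 by omega] at this
    exact hq.not_dvd_one this
  have hinv : ∀ g : G, g ^ (2 * Nat.card G - 1) = g⁻¹ := fun g => by
    have hG := Nat.card_pos (α := G)
    rw [eq_inv_iff_mul_eq_one, ← pow_succ,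
      show 2 * Nat.card G - 1 + 1 = Nat.card G * 2 by omega, pow_mul, pow_card_eq_one', one_pow]
  let f : Function.End {χ : IrrCharacter G // P χ} := fun χ => ⟨_, hcl _ hn χ.1 χ.2⟩
  have hf : f ^ 2 ^ 1 = 1 := by
    funext χ
    refine Subtype.ext (Subtype.ext (funext fun g => ?_))
    show (χ.1 : G → ℂ) ((g ^ (2 * Nat.card G - 1)) ^ (2 * Nat.card G - 1)) = (χ.1 : G → ℂ) g
    rw [hinv, hinv, inv_inv]
  have hmod := Equiv.Perm.card_fixedPoints_modEq hf
  rw [← Nat.card_eq_fintype_card, ← Nat.card_eq_fintype_card] at hmod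
  have hc : Nat.card f.fixedPoints = 1 := by
    rw [Nat.card_eq_one_iff_unique]
    have hone : ∀ x : f.fixedPoints, ((x.1.1 : IrrCharacter G) : G → ℂ) = fun _ => 1 := by
      intro x
      have hd1 := hlin _ x.1.2
      obtain ⟨φ, hφ⟩ := exists_hom_of_linear (isCharacter_of_isIrr x.1.1.2)
        ((apply_one_eq_charDegree (isCharacter_of_isIrr x.1.1.2)).trans (by rw [hd1, Nat.cast_one]))
      have hsq : ∀ g : G, φ g * φ g = 1 := fun g => by
        have h := congrFun (congrArg Subtype.val (congrArg Subtype.val x.2)) g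
        change ((x.1.1 : IrrCharacter G) : G → ℂ) (g ^ (2 * Nat.card G - 1)) = _ at h
        rw [hinv, hφ, hφ, map_inv] at h
        have h' : (φ g)⁻¹ = φ g := Units.ext h
        conv_lhs => arg 1; rw [← h']
        exact inv_mul_cancel _
      have hker : ∀ g : G, φ g = 1 := by
        have hle : (⊤ : Subgroup G) ≤ φ.ker := by
          rw [← htop]
          refine (Subgroup.closure_le _).2 fun g hg => ?_
          show φ g = 1
          have h2 : φ g ^ 2 = 1 := by rw [pow_two, hsq]
          have h3 : φ g ^ orderOf g = 1 := by rw [← map_pow, pow_orderOf_eq_one, map_one]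
          have h4 := pow_gcd_eq_one.mpr ⟨h3, h2⟩
          rwa [(hg : Nat.Coprime (orderOf g) 2).gcd_eq_one, pow_one] at h4
        exact fun g => hle (Subgroup.mem_top g)
      funext g
      rw [hφ, hker, Units.val_one]
    refine ⟨⟨fun x y => Subtype.ext (Subtype.ext (Subtype.ext ((hone x).trans (hone y).symm)))⟩,
      ⟨⟨⟨Block.oneIrr G, h1⟩, Subtype.ext (Subtype.ext (funext fun _ => rfl))⟩⟩⟩
  rw [hc] at hmod
  rw [Nat.odd_iff]
  exact hmod

/-- Over a group without normal `2`-complement some nonlinear character of odd degree of the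
principal block is fixed. -/
theorem exists_nonlinear_fixed (hM : IsPModular 2 M) (k : ℕ)
    (hk₁ : ∀ g : G, (∃ j : ℕ, orderOf g = 2 ^ j) → g ^ k = g ^ 3)
    (hk₂ : ∀ g : G, Odd (orderOf g) → g ^ k = g) (hev : Even (Nat.card (pResidual 2 G))) :
    ∃ χ : IrrCharacter G, χ ∈ principalBlock M G ∧ Odd (charDegree (χ : G → ℂ)) ∧
      (∀ g : G, (χ : G → ℂ) (g ^ k) = (χ : G → ℂ) g) ∧ charDegree (χ : G → ℂ) ≠ 1 := by
  classical
  haveI : Fact (Nat.Prime 2) := ⟨Nat.prime_two⟩
  obtain ⟨N, hNdef⟩ : ∃ N : Subgroup G, N = pResidual 2 G := ⟨_, rfl⟩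
  haveI hN : N.Normal := by rw [hNdef]; infer_instance
  rw [← hNdef] at hev
  haveI := Fintype.ofFinite G
  haveI := Fintype.ofFinite N
  have hNk₁ : ∀ g : N, (∃ j : ℕ, orderOf g = 2 ^ j) → g ^ k = g ^ 3 := fun g hg => Subtype.ext (by
    simpa using hk₁ (g : G) (by simpa [Subgroup.orderOf_coe] using hg))
  have hNk₂ : ∀ g : N, Odd (orderOf g) → g ^ k = g := fun g hg => Subtype.ext (by
    simpa using hk₂ (g : G) (by simpa [Subgroup.orderOf_coe] using hg))
  have hcnt := Cfsg.Agent.S4550.result M hM hev k hNk₁ hNk₂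
  let S := {θ : IrrCharacter N // θ ∈ principalBlock M N ∧ Odd (charDegree (θ : N → ℂ)) ∧
    ∀ g : N, (θ : N → ℂ) (g ^ k) = (θ : N → ℂ) g}
  -- conjugation by a Sylow subgroup
  let P : Sylow 2 G := default
  have hclosed : ∀ (g : G) (θ : IrrCharacter N),
      (θ ∈ principalBlock M N ∧ Odd (charDegree (θ : N → ℂ)) ∧
        ∀ n : N, (θ : N → ℂ) (n ^ k) = (θ : N → ℂ) n) →
      (Block.conjIrr N g θ ∈ principalBlock M N ∧
        Odd (charDegree (Block.conjIrr N g θ : N → ℂ)) ∧
        ∀ n : N, (Block.conjIrr N g θ : N → ℂ) (n ^ k) = (Block.conjIrr N g θ : N → ℂ) n) := by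
    intro g θ ⟨hB, hd, hf⟩
    refine ⟨?_, ?_, fun n => ?_⟩
    · have h2 := Block.sameBlock_conjIrr N g
        (show SameBlock M (Block.oneIrr N : N → ℂ) (θ : N → ℂ) from hB)
      rwa [show Block.conjIrr N g (Block.oneIrr N) = Block.oneIrr N from
        Subtype.ext (funext fun _ => rfl)] at h2
    · rw [show charDegree (Block.conjIrr N g θ : N → ℂ) = charDegree (θ : N → ℂ) from
        charDegree_eq_of_apply_one ((conjChar_apply_one N g _).trans
          (apply_one_eq_charDegree (isCharacter_of_isIrr θ.2)))]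
      exact hd
    · show conjChar N g (θ : N → ℂ) (n ^ k) = conjChar N g (θ : N → ℂ) n
      rw [conjChar_eq_comp, Function.comp_apply, Function.comp_apply, map_pow, hf]
  letI act : MulAction P S :=
    { smul := fun x θ => ⟨Block.conjIrr N (x : G)⁻¹ θ.1, hclosed _ _ θ.2⟩
      one_smul := fun θ => Subtype.ext (Subtype.ext (by
        show conjChar N ((1 : P) : G)⁻¹ (θ.1 : N → ℂ) = _
        rw [OneMemClass.coe_one, inv_one, conjChar_one]))
      mul_smul := fun x y θ => Subtype.ext (Subtype.ext (by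
        show conjChar N ((x * y : P) : G)⁻¹ (θ.1 : N → ℂ) =
          conjChar N (x : G)⁻¹ (conjChar N (y : G)⁻¹ (θ.1 : N → ℂ))
        rw [Subgroup.coe_mul, mul_inv_rev, conjChar_mul])) }
  have hmod := P.2.card_modEq_card_fixedPoints S
  have heven : Even (Nat.card (MulAction.fixedPoints P S)) := by
    rw [Nat.even_iff] at hcnt ⊢
    exact Eq.trans hmod.symm hcnt
  -- among the fixed ones, the linear ones are odd in number
  have hsup : N ⊔ (P : Subgroup G) = ⊤ := by rw [hNdef]; exact Transfer.pResidual_sup_sylow P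
  have hinv : ∀ x : MulAction.fixedPoints P S, ∀ g : G,
      conjChar N g (x.1.1 : N → ℂ) = (x.1.1 : N → ℂ) := by
    intro x g
    have hle : (P : Subgroup G) ≤ inertia N (x.1.1 : N → ℂ) := fun y hy => by
      have h := congrArg (fun z : S => ((z.1 : IrrCharacter N) : N → ℂ)) (x.2 (⟨y, hy⟩⁻¹))
      change conjChar N (((⟨y, hy⟩ : P)⁻¹ : P) : G)⁻¹ (x.1.1 : N → ℂ) = _ at h
      rw [InvMemClass.coe_inv, inv_inv] at h
      exact h
    exact (mem_inertia N).1 (top_le_iff.1 (hsup ▸
      sup_le (le_inertia N (isClassFunction_of_isIrr x.1.1.2)) hle) ▸ Subgroup.mem_top g)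
  obtain ⟨x, hx⟩ : ∃ x : MulAction.fixedPoints P S, charDegree (x.1.1 : N → ℂ) ≠ 1 := by
    by_contra hall
    push Not at hall
    let Q : IrrCharacter N → Prop := fun θ => θ ∈ principalBlock M N ∧
      charDegree (θ : N → ℂ) = 1 ∧ (∀ n : N, (θ : N → ℂ) (n ^ k) = (θ : N → ℂ) n) ∧
      ∀ g : G, conjChar N g (θ : N → ℂ) = (θ : N → ℂ)
    -- the linear fixed ones
    have hodd : Odd (Nat.card {θ : IrrCharacter N //
        θ ∈ principalBlock M N ∧ charDegree (θ : N → ℂ) = 1 ∧
          (∀ n : N, (θ : N → ℂ) (n ^ k) = (θ : N → ℂ) n) ∧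
          ∀ g : G, conjChar N g (θ : N → ℂ) = (θ : N → ℂ)}) :=
      odd_linear_closed (by subst hNdef; exact Transfer.pResidual_pResidual) Q
        ⟨Block.oneIrr_mem, charDegree_eq_of_apply_one (by simp [Block.oneIrr_apply]),
          fun _ => rfl, fun _ => rfl⟩
        (fun θ hθ => hθ.2.1)
        (fun j hj θ ⟨hB, hd, hf, hi⟩ => ⟨pow_mem_principal hj hB,
          (charDegree_pow_fun j _).trans hd, fun n => by
            show (θ : N → ℂ) ((n ^ k) ^ j) = (θ : N → ℂ) (n ^ j)
            rw [← pow_mul, mul_comm, pow_mul]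
            exact hf _, fun g => by
            rw [conjChar_eq_comp]
            funext n
            show (θ : N → ℂ) ((MulAut.conjNormal g).toMonoidHom n ^ j) = (θ : N → ℂ) (n ^ j)
            rw [← map_pow]
            have := congrFun (hi g) (n ^ j)
            rwa [conjChar_eq_comp] at this⟩)
    refine (Nat.not_odd_iff_even.2 heven) ?_
    convert hodd using 1
    refine Nat.card_congr
      { toFun := fun x => ⟨x.1.1, x.1.2.1, hall x, x.1.2.2.2, hinv x⟩
        invFun := fun θ => ⟨⟨θ.1, θ.2.1, by rw [θ.2.2.1]; exact odd_one, θ.2.2.2.1⟩,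
          fun y => Subtype.ext (Subtype.ext (θ.2.2.2.2 _))⟩
        left_inv := fun x => rfl
        right_inv := fun θ => rfl }
  obtain ⟨hB, hd, hf⟩ := x.1.2
  obtain ⟨χ, hχ, hχN, hχk⟩ := exists_fixed_ext_coprime (p := 2) hNdef (k := k) hk₁
    (fun g hg => hk₂ g (Nat.coprime_two_right.1 hg)) x.1.1
    (by rw [← even_iff_two_dvd, Nat.not_even_iff_odd]; exact hd) (hinv x) hf
  have hdeg : charDegree χ = charDegree (x.1.1 : N → ℂ) := charDegree_eq_of_apply_one
    ((hχN 1).trans (apply_one_eq_charDegree (isCharacter_of_isIrr x.1.1.2)))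
  refine ⟨⟨χ, hχ⟩, ?_, by rw [hdeg]; exact hd, hχk, by rw [hdeg]; exact hx⟩
  obtain ⟨a, ha⟩ := index_eq_pow (p := 2) hNdef
  show SameBlock M (Block.oneIrr G : G → ℂ) χ
  refine Block.sameBlock_of_constituent N hM ha (θ := Block.oneIrr N) (θ' := x.1.1)
    (χ' := ⟨χ, hχ⟩) ?_ ?_ hB
  · rw [show (fun n : N => (Block.oneIrr G : G → ℂ) n) = (Block.oneIrr N : N → ℂ) from rfl,
      classInner_irr_self (Block.oneIrr N).2]
    exact one_ne_zero
  · show classInner (fun n : N => χ n) _ ≠ 0
    rw [funext hχN, classInner_irr_self x.1.1.2]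
    exact one_ne_zero

end Cfsg.Agent.Lib.CharGaloisOver
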