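import Cfsg.Agent.Lib.CharClifford.Extend
import Cfsg.Agent.Lib.CharClifford.Gallagher
import Cfsg.Agent.Lib.CharClifford.Divides
import Cfsg.Agent.Lib.Glauberman.CyclicExt
import Cfsg.Agent.Lib.CharGalois
import Cfsg.Agent.Lib.Block.PrincipalCover
import Cfsg.Agent.Lib.Transfer.Basic

/-!
# Fixed characters over the `p`-residual with a cyclic quotient

The canonical extension of an invariant character of degree prime to `p` is fixed by every
automorphism that fixes the character and the roots of unity of order prime to `p`; the fixed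
extensions are its twists by the characters of order dividing `p`.
-/

set_option autoImplicit false
set_option linter.unusedSectionVars false
set_option linter.style.haveILetI false

namespace Cfsg.Agent.Lib.CharGaloisOver

open Cfsg Cfsg.Agent.Lib Cfsg.Agent.Lib.Char Cfsg.Agent.Lib.CharClifford

universe u

variable {G : Type u} [Group G] [Finite G] {p : ℕ} [hp : Fact p.Prime]

/-- The determinant of a power twist. -/
theorem detChar_pow {k : ℕ} (hk : Nat.Coprime k (Nat.card G)) {χ : G → ℂ}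
    (hχ : IsIrrCharacter G χ) (g : G) :
    detChar (fun x => χ (x ^ k)) g = detChar χ g ^ k := by
  haveI := Fintype.ofFinite G
  obtain ⟨σ, hσ⟩ := CharGalois.exists_aut_pow (Nat.card_pos (α := G)) hk
  rw [show (fun x => χ (x ^ k)) = fun x => σ (χ x) from
    funext fun x => (CharGalois.aut_apply_char hσ (isCharacter_of_isIrr hχ) x).symm]
  obtain ⟨n, ρ, hρ, hχe, -, hdet⟩ := exists_detHom hχ
  subst hχe
  haveI := hρ
  let T : (Matrix (Fin n) (Fin n) ℂ) →+* Matrix (Fin n) (Fin n) ℂ := (σ : ℂ →+* ℂ).mapMatrix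
  let R : Representation ℂ G (Fin n → ℂ) :=
    { toFun := fun g => Matrix.toLin' (T (LinearMap.toMatrix' (ρ g)))
      map_one' := by simp [map_one, Module.End.one_eq_id]
      map_mul' := fun a b => by
        rw [map_mul, LinearMap.toMatrix'_mul, map_mul, Matrix.toLin'_mul]
        rfl }
  have hR : R.character = fun g => σ (ρ.character g) := funext fun g => by
    show LinearMap.trace ℂ _ (Matrix.toLin' (T (LinearMap.toMatrix' (ρ g)))) = σ (ρ.character g)
    rw [Matrix.trace_toLin'_eq, Representation.character,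
      LinearMap.trace_eq_matrix_trace ℂ (Pi.basisFun ℂ (Fin n)), LinearMap.toMatrix_eq_toMatrix']
    simp [Matrix.trace, T]
  haveI : R.IsIrreducible := isIrreducible_of_isIrrCharacter R (by
    rw [hR]; exact CharGalois.isIrrCharacter_aut σ (isIrrCharacter_character ρ))
  rw [← hR, detChar_character R, hdet]
  show LinearMap.det (Matrix.toLin' (T (LinearMap.toMatrix' (ρ g)))) = _
  rw [LinearMap.det_toLin', ← RingHom.map_det, LinearMap.det_toMatrix', ← detHom_apply]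
  refine hσ _ ?_
  rw [← Units.val_pow_eq_pow_val, ← map_pow, pow_card_eq_one', map_one, Units.val_one]

/-- The power map is coprime to the order of the group. -/
theorem coprime_of_power {k : ℕ} (hk₁ : ∀ g : G, (∃ j : ℕ, orderOf g = p ^ j) → g ^ k = g ^ (1 + p))
    (hk₂ : ∀ g : G, Nat.Coprime (orderOf g) p → g ^ k = g) : Nat.Coprime k (Nat.card G) := by
  refine Nat.coprime_of_dvd fun q hq hqk hqG => ?_
  haveI := Fact.mk hq
  obtain ⟨g, hg⟩ := exists_prime_orderOf_dvd_card' q hqG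
  have h1 : g ^ k = 1 := orderOf_dvd_iff_pow_eq_one.1 (hg ▸ hqk)
  by_cases hqp : q = p
  · rw [hk₁ g ⟨1, by rw [hg, pow_one, hqp]⟩, pow_add, pow_one,
      show g ^ p = 1 by rw [← hqp, ← hg]; exact pow_orderOf_eq_one g, mul_one] at h1
    rw [h1, orderOf_one] at hg
    exact hq.one_lt.ne hg
  · rw [hk₂ g (by rw [hg]; exact (Nat.coprime_primes hq hp.out).2 hqp)] at h1
    rw [h1, orderOf_one] at hg
    exact hq.one_lt.ne hg

variable {N : Subgroup G} [hN : N.Normal] {k : ℕ}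

/-- A linear twist fixing an extension of degree prime to the index is trivial. -/
theorem eq_one_of_twist {θ : IrrCharacter N} {E : G → ℂ} (hE : IsIrrCharacter G E)
    (hEN : ∀ n : N, E n = (θ : N → ℂ) n) (hcop : Nat.Coprime N.index (charDegree (θ : N → ℂ)))
    (ν : G →* ℂˣ) (hνN : ∀ n : N, ν n = 1) (h : ∀ x, (ν x : ℂ) * E x = E x) (g : G) : ν g = 1 := by
  haveI := Fintype.ofFinite G
  have hdE := detChar_twist hE ((hEN 1).trans
    (apply_one_eq_charDegree (isCharacter_of_isIrr θ.2))) ν g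
  rw [funext h] at hdE
  obtain ⟨_, σ, _, _, _, hdet⟩ := exists_detHom hE
  have h1 : (ν g : ℂ) ^ charDegree (θ : N → ℂ) = 1 :=
    (mul_left_eq_self₀.mp hdE.symm).resolve_right (by rw [hdet]; exact Units.ne_zero _)
  have h2 : ν g ^ charDegree (θ : N → ℂ) = 1 :=
    Units.ext (by rw [Units.val_pow_eq_pow_val, h1]; rfl)
  have h3 := pow_gcd_eq_one.mpr ⟨apply_pow_index_eq_one ν hνN g, h2⟩
  rwa [hcop.gcd_eq_one, pow_one] at h3

/-- A character of degree prime to `p` stays irreducible on a normal subgroup of `p`-power index. -/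
theorem restrict_of_index {a : ℕ} (ha : N.index = p ^ a) (χ : IrrCharacter G)
    (hd : ¬ p ∣ charDegree (χ : G → ℂ)) : ∃ θ : IrrCharacter N, ∀ n : N, (χ : G → ℂ) n = (θ : N → ℂ) n := by
  classical
  haveI := Fintype.ofFinite G
  haveI := Fintype.ofFinite N
  have hne : (fun n : N => (χ : G → ℂ) n) ≠ 0 := fun h => irr_degree_ne_zero χ.2 (congrFun h 1)
  obtain ⟨θ, hθ⟩ := exists_constituent (isCharacter_restrict (isCharacter_of_isIrr χ.2) N) hne
  obtain ⟨e, he⟩ := classInner_natCast (isCharacter_restrict (isCharacter_of_isIrr χ.2) N)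
    (isCharacter_of_isIrr θ.2)
  have h := clifford_degree N χ.2 θ.2 hθ
  rw [he, apply_one_eq_charDegree (isCharacter_of_isIrr χ.2),
    apply_one_eq_charDegree (isCharacter_of_isIrr θ.2)] at h
  have h' : charDegree (χ : G → ℂ) = e * (inertia N (θ : N → ℂ)).index * charDegree (θ : N → ℂ) := by
    exact_mod_cast h
  have hdvd : ∀ x, x ∣ p ^ a → x ∣ charDegree (χ : G → ℂ) → x = 1 := fun x hx hx' => by
    obtain ⟨i, -, rfl⟩ := (Nat.dvd_prime_pow hp.out).1 hx
    rcases Nat.eq_zero_or_pos i with rfl | hi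
    · exact pow_zero p
    · exact absurd ((dvd_pow_self p hi.ne').trans hx') hd
  have ht : (inertia N (θ : N → ℂ)).index = 1 :=
    hdvd _ (ha ▸ Subgroup.index_dvd_of_le (le_inertia N (isClassFunction_of_isIrr θ.2)))
      (by rw [h']; exact dvd_mul_of_dvd_left (dvd_mul_left _ _) _)
  have horb : orbit N (θ : N → ℂ) = {(θ : N → ℂ)} := by
    obtain ⟨ψ, hψ⟩ := Finset.card_eq_one.1 ((card_orbit N _ (irr_degree_ne_zero θ.2)).trans ht)
    rw [hψ, Finset.singleton_inj]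
    have hmem : (θ : N → ℂ) ∈ orbit N (θ : N → ℂ) := (mem_orbit N).2 ⟨1, conjChar_one N _⟩
    rw [hψ, Finset.mem_singleton] at hmem
    exact hmem.symm
  have hres : ∀ n : N, (χ : G → ℂ) n = (e : ℂ) * (θ : N → ℂ) n := fun n => by
    have := congrFun (clifford N χ.2 θ.2 hθ) n
    rw [horb, Finset.sum_singleton, he] at this
    exact this
  have he1 : e = 1 := hdvd _ (ha ▸ ramification_dvd_index N χ.2 θ.2 e hres)
    (by rw [h']; exact dvd_mul_of_dvd_left (dvd_mul_right _ _) _)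
  exact ⟨θ, fun n => by rw [hres n, he1, Nat.cast_one, one_mul]⟩

variable (hNres : N = pResidual p G) (hcyc : IsCyclic (G ⧸ N))

include hNres in
theorem index_eq_pow : ∃ a : ℕ, N.index = p ^ a := by
  subst hNres
  obtain ⟨a, ha⟩ := IsPGroup.iff_card.1
    (Transfer.isPGroup_quotient_pResidual : IsPGroup p (G ⧸ pResidual p G))
  exact ⟨a, by rw [Subgroup.index_eq_card, ha]⟩

include hNres hcyc in
/-- The canonical fixed extension. -/
theorem exists_fixed_ext (hk₁ : ∀ g : G, (∃ j : ℕ, orderOf g = p ^ j) → g ^ k = g ^ (1 + p))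
    (hk₂ : ∀ g : G, Nat.Coprime (orderOf g) p → g ^ k = g) (θ : IrrCharacter N)
    (hd : ¬ p ∣ charDegree (θ : N → ℂ)) (hinv : ∀ g : G, conjChar N g (θ : N → ℂ) = (θ : N → ℂ))
    (hfix : ∀ n : N, (θ : N → ℂ) (n ^ k) = (θ : N → ℂ) n) :
    ∃ χ : G → ℂ, IsIrrCharacter G χ ∧ (∀ n : N, χ n = (θ : N → ℂ) n) ∧
      ∀ g : G, χ (g ^ k) = χ g := by
  classical
  obtain ⟨a, ha⟩ := index_eq_pow hNres
  have hk := coprime_of_power hk₁ hk₂
  obtain ⟨η, hη, hηN⟩ := extends_of_cyclic θ.2 hinv hcyc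
  obtain ⟨d, σ, hσ, hσc, -, hdet⟩ := exists_detHom hη
  obtain ⟨b, m, hm, hbm⟩ := Nat.exists_eq_pow_mul_and_not_dvd (Nat.card_pos (α := G)).ne' p
    hp.out.ne_one
  have hcop : Nat.Coprime m (p ^ b) := ((hp.out.coprime_iff_not_dvd.2 hm).symm).pow_right b
  obtain ⟨e, he1, he0⟩ := Nat.chineseRemainder hcop 1 0
  obtain ⟨c, hc⟩ := Nat.modEq_zero_iff_dvd.1 he0
  have hcard : ∀ g : G, (g ^ e) ^ m = 1 := fun g => by
    rw [← pow_mul, hc, show p ^ b * c * m = Nat.card G * c by rw [hbm]; ring, pow_mul,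
      pow_card_eq_one', one_pow]
  have hkill : ∀ n : N, detHom σ n ^ m = 1 := by
    have hle : N ≤ ((powMonoidHom m).comp (detHom σ)).ker := by
      rw [hNres]
      refine (Subgroup.closure_le _).2 fun g hg => ?_
      have hgm : orderOf g ∣ m := by
        have h1 : orderOf g ∣ p ^ b * m := hbm ▸ orderOf_dvd_natCard g
        exact (Nat.Coprime.pow_right b hg).dvd_of_dvd_mul_left h1
      show detHom σ g ^ m = 1
      rw [← map_pow, orderOf_dvd_iff_pow_eq_one.1 hgm, map_one]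
    exact fun n => hle n.2
  let μ : G →* ℂˣ := (powMonoidHom e).comp (detHom σ)
  have hμN : ∀ n : N, μ n = detHom σ n := fun n => by
    show detHom σ n ^ e = detHom σ n
    conv_rhs => rw [← pow_one (detHom σ n)]
    exact pow_eq_pow_iff_modEq.2 (Nat.ModEq.of_dvd (orderOf_dvd_of_pow_eq_one (hkill n)) he1)
  have hcopN : Nat.Coprime N.index (charDegree (θ : N → ℂ)) := by
    rw [ha]
    exact ((hp.out.coprime_iff_not_dvd.2 hd)).pow_left a
  obtain ⟨χ, ⟨hχ, hχN, hχdet⟩, huniq⟩ := existsUnique_extension_det θ.2 _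
    (apply_one_eq_charDegree (isCharacter_of_isIrr θ.2)) hcopN ⟨η, hη, hηN⟩ μ
    (fun n => by rw [hμN, ← detChar_restrict hη θ.2 hηN n, hdet])
  refine ⟨χ, hχ, hχN, fun g => congrFun (huniq (fun x => χ (x ^ k))
    ⟨CharGalois.isIrrCharacter_pow hk hχ, fun n => ?_, funext fun x => ?_⟩) g⟩
  · show χ ((n : G) ^ k) = _
    rw [← Subgroup.coe_pow, hχN, hfix]
  · rw [detChar_pow hk hχ, hχdet]
    have h1 : (x ^ e) ^ k = x ^ e := by
      refine hk₂ _ ?_
      exact Nat.Coprime.coprime_dvd_left (orderOf_dvd_of_pow_eq_one (hcard x))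
        (hp.out.coprime_iff_not_dvd.2 hm).symm
    show ((detHom σ x ^ e : ℂˣ) : ℂ) ^ k = ((detHom σ x ^ e : ℂˣ) : ℂ)
    rw [← Units.val_pow_eq_pow_val, ← map_pow, ← map_pow, h1]

variable (hk₁ : ∀ g : G, (∃ j : ℕ, orderOf g = p ^ j) → g ^ k = g ^ (1 + p))

include hNres hk₁ in
/-- On the quotient the power map is the power `1 + p`. -/
theorem apply_pow (l : G →* ℂˣ) (hl : ∀ n : N, l n = 1) (g : G) : l (g ^ k) = l g ^ (1 + p) := by
  obtain ⟨a, ha⟩ := index_eq_pow hNres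
  obtain ⟨b, m, hm, hbm⟩ := Nat.exists_eq_pow_mul_and_not_dvd (Nat.card_pos (α := G)).ne' p
    hp.out.ne_one
  have hcop : Nat.Coprime (p ^ b) m := (hp.out.coprime_iff_not_dvd.2 hm).pow_left b
  obtain ⟨e, he1, he0⟩ := Nat.chineseRemainder hcop 1 0
  obtain ⟨c, hc⟩ := Nat.modEq_zero_iff_dvd.1 he0
  have hab : p ^ a ∣ p ^ b := ((hp.out.coprime_iff_not_dvd.2 hm).pow_left a).dvd_of_dvd_mul_right
    (hbm ▸ ha ▸ N.index_dvd_card)
  have hge : (g ^ e) ^ p ^ b = 1 := by
    rw [← pow_mul, hc, show m * c * p ^ b = Nat.card G * c by rw [hbm]; ring, pow_mul,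
      pow_card_eq_one', one_pow]
  have hlg : l (g ^ e) = l g := by
    rw [map_pow]
    conv_rhs => rw [← pow_one (l g)]
    refine pow_eq_pow_iff_modEq.2 (Nat.ModEq.of_dvd ?_ he1)
    refine (orderOf_dvd_of_pow_eq_one ?_).trans hab
    rw [← ha]
    exact apply_pow_index_eq_one l hl g
  obtain ⟨j, -, hj⟩ := (Nat.dvd_prime_pow hp.out).1 (orderOf_dvd_of_pow_eq_one hge)
  rw [map_pow, ← hlg, ← map_pow, hk₁ _ ⟨j, hj⟩, map_pow]

include hNres hcyc in
/-- The linear characters of the quotient of order dividing `p`. -/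
theorem card_twists (hnt : N ≠ ⊤) :
    Nat.card {l : G →* ℂˣ // (∀ n : N, l n = 1) ∧ ∀ g, l g ^ p = 1} = p := by
  classical
  obtain ⟨a, ha⟩ := index_eq_pow hNres
  obtain ⟨g₀, hg₀⟩ := hcyc.exists_generator
  obtain ⟨x₀, rfl⟩ := QuotientGroup.mk_surjective g₀
  have hpa : p ∣ orderOf (x₀ : G ⧸ N) := by
    rw [orderOf_eq_card_of_forall_mem_zpowers hg₀, ← Subgroup.index_eq_card, ha]
    refine dvd_pow_self p ?_
    rintro rfl
    exact hnt (Subgroup.index_eq_one.1 (ha.trans (pow_zero p)))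
  conv_rhs => rw [← Complex.card_rootsOfUnity p]
  refine Nat.card_congr (Equiv.ofBijective
    (fun l => (⟨l.1 x₀, (mem_rootsOfUnity p _).2 (l.2.2 x₀)⟩ : rootsOfUnity p ℂ)) ⟨?_, ?_⟩)
  · rintro ⟨l, hl, _⟩ ⟨l', hl', _⟩ h0
    have h : l x₀ = l' x₀ := congrArg Subtype.val h0
    refine Subtype.ext (MonoidHom.ext fun g => ?_)
    obtain ⟨i, hi⟩ := Subgroup.mem_zpowers_iff.1 (hg₀ (g : G ⧸ N))
    rw [← QuotientGroup.mk_zpow, QuotientGroup.eq] at hi
    show l g = l' g
    have e1 := hl ⟨_, hi⟩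
    have e2 := hl' ⟨_, hi⟩
    simp only [map_mul, map_inv, map_zpow, inv_mul_eq_one] at e1 e2
    rw [← e1, ← e2, h]
  · rintro ⟨ζ, hζ⟩
    have hζ' := (mem_rootsOfUnity p _).1 hζ
    have hd : orderOf ζ ∣ orderOf (x₀ : G ⧸ N) := (orderOf_dvd_of_pow_eq_one hζ').trans hpa
    refine ⟨⟨(monoidHomOfForallMemZpowers hg₀ hd).comp (QuotientGroup.mk' N), fun n => ?_,
      fun g => ?_⟩, Subtype.ext ?_⟩
    · rw [MonoidHom.comp_apply, QuotientGroup.mk'_apply, (QuotientGroup.eq_one_iff (n : G)).2 n.2,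
        map_one]
    · obtain ⟨i, hi⟩ := Subgroup.mem_zpowers_iff.1 (hg₀ (g : G ⧸ N))
      rw [MonoidHom.comp_apply, QuotientGroup.mk'_apply, ← hi, map_zpow,
        monoidHomOfForallMemZpowers_apply_gen]
      rw [← zpow_natCast, ← zpow_mul, mul_comm, zpow_mul, zpow_natCast, hζ', one_zpow]
    · exact monoidHomOfForallMemZpowers_apply_gen hg₀ hd

variable {M : Ideal AlgInt} [M.IsPrime]

include hNres hcyc hk₁ in
/-- The count. -/
theorem card_fixed_principal (hM : IsPModular p M) (P : Sylow p G) (hnt : N ≠ ⊤)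
    (hk₂ : ∀ g : G, Nat.Coprime (orderOf g) p → g ^ k = g) :
    Nat.card {χ : IrrCharacter G // χ ∈ principalBlock M G ∧ ¬ p ∣ charDegree (χ : G → ℂ) ∧
        ∀ g : G, (χ : G → ℂ) (g ^ k) = (χ : G → ℂ) g} =
      p * Nat.card {θ : IrrCharacter N // θ ∈ principalBlock M N ∧ ¬ p ∣ charDegree (θ : N → ℂ) ∧
        (∀ x ∈ (P : Subgroup G), ∀ n : N,
          (θ : N → ℂ) ⟨x * n * x⁻¹, hN.conj_mem n n.2 x⟩ = (θ : N → ℂ) n) ∧
        ∀ n : N, (θ : N → ℂ) (n ^ k) = (θ : N → ℂ) n} := by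
  classical
  haveI := Fintype.ofFinite G
  haveI := Fintype.ofFinite N
  obtain ⟨a, ha⟩ := index_eq_pow hNres
  have hsup : N ⊔ P = ⊤ := by subst hNres; exact Transfer.pResidual_sup_sylow P
  have hinv : ∀ θ : IrrCharacter N, (∀ x ∈ (P : Subgroup G), ∀ n : N,
      (θ : N → ℂ) ⟨x * n * x⁻¹, hN.conj_mem n n.2 x⟩ = (θ : N → ℂ) n) →
      ∀ g : G, conjChar N g (θ : N → ℂ) = (θ : N → ℂ) := fun θ h g =>
    (mem_inertia N).1 (top_le_iff.1 (hsup ▸ sup_le (le_inertia N (isClassFunction_of_isIrr θ.2))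
      (fun x hx => (mem_inertia N).2 (funext fun n => (conjChar_apply N x _ n).trans (h x hx n)))) ▸
        Subgroup.mem_top g)
  choose E hE hEN hEfix using fun θ : {θ : IrrCharacter N // θ ∈ principalBlock M N ∧
      ¬ p ∣ charDegree (θ : N → ℂ) ∧ (∀ x ∈ (P : Subgroup G), ∀ n : N,
          (θ : N → ℂ) ⟨x * n * x⁻¹, hN.conj_mem n n.2 x⟩ = (θ : N → ℂ) n) ∧
        ∀ n : N, (θ : N → ℂ) (n ^ k) = (θ : N → ℂ) n} =>
    exists_fixed_ext hNres hcyc hk₁ hk₂ θ.1 θ.2.2.1 (hinv θ.1 θ.2.2.2.1) θ.2.2.2.2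
  conv_rhs => rw [mul_comm]; arg 2; rw [← card_twists hNres hcyc hnt]
  rw [← Nat.card_prod]
  symm
  refine Nat.card_congr (Equiv.ofBijective (fun q => (⟨⟨fun g => (q.2.1 g : ℂ) * E q.1 g,
    isIrrCharacter_linear_mul (hE q.1) q.2.1⟩, ?_, ?_, ?_⟩ : {χ : IrrCharacter G //
      χ ∈ principalBlock M G ∧ ¬ p ∣ charDegree (χ : G → ℂ) ∧
        ∀ g : G, (χ : G → ℂ) (g ^ k) = (χ : G → ℂ) g})) ⟨?_, ?_⟩)
  · have hres : (fun n : N => (q.2.1 (n : G) : ℂ) * E q.1 n) = ((q.1.1 : IrrCharacter N) : N → ℂ) :=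
      funext fun n => by rw [q.2.2.1 n, Units.val_one, one_mul, hEN]
    show SameBlock M (Block.oneIrr G : G → ℂ) _
    refine Block.sameBlock_of_constituent N hM ha (θ := Block.oneIrr N) (θ' := q.1.1) ?_ ?_ q.1.2.1
    · rw [show (fun n : N => (Block.oneIrr G : G → ℂ) n) = (Block.oneIrr N : N → ℂ) from rfl,
        classInner_irr_self (Block.oneIrr N).2]
      exact one_ne_zero
    · show classInner (fun n : N => (q.2.1 (n : G) : ℂ) * E q.1 n) _ ≠ 0
      rw [hres, classInner_irr_self q.1.1.2]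
      exact one_ne_zero
  · rw [charDegree_eq_of_apply_one (n := charDegree (q.1.1 : N → ℂ)) ?_]
    · exact q.1.2.2.1
    · show (q.2.1 1 : ℂ) * E q.1 1 = _
      rw [map_one, Units.val_one, one_mul, show E q.1 1 = (q.1.1 : N → ℂ) 1 from hEN q.1 1,
        apply_one_eq_charDegree (isCharacter_of_isIrr q.1.1.2)]
  · intro g
    show (q.2.1 (g ^ k) : ℂ) * E q.1 (g ^ k) = (q.2.1 g : ℂ) * E q.1 g
    rw [hEfix, apply_pow hNres hk₁ q.2.1 q.2.2.1, pow_add, pow_one, q.2.2.2, mul_one]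
  · rintro ⟨θ, l⟩ ⟨θ', l'⟩ h
    have h' : ∀ g, (l.1 g : ℂ) * E θ g = (l'.1 g : ℂ) * E θ' g :=
      fun g => congrFun (congrArg (fun χ => ((χ.1 : IrrCharacter G) : G → ℂ)) h) g
    have hθ : θ = θ' := by
      refine Subtype.ext (Subtype.ext (funext fun n => ?_))
      have := h' n
      rwa [l.2.1 n, l'.2.1 n, hEN, hEN, Units.val_one, one_mul, one_mul] at this
    subst hθ
    refine Prod.ext rfl (Subtype.ext (MonoidHom.ext fun g => ?_))
    refine mul_inv_eq_one.1 (eq_one_of_twist (hE θ) (hEN θ)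
      (ha ▸ (hp.out.coprime_iff_not_dvd.2 θ.2.2.1).pow_left a) (l.1 * (l'.1)⁻¹)
      (fun n => by simp [l.2.1 n, l'.2.1 n]) (fun x => ?_) g)
    rw [MonoidHom.mul_apply, MonoidHom.inv_apply, Units.val_mul, Units.val_inv_eq_inv_val,
      mul_right_comm, h' x, mul_right_comm, mul_inv_cancel₀ (Units.ne_zero _), one_mul]
  · rintro ⟨χ, hχB, hχd, hχfix⟩
    obtain ⟨θ, hθ⟩ := restrict_of_index ha χ hχd
    have hne : classInner (fun n : N => (χ : G → ℂ) n) (θ : N → ℂ) ≠ 0 := by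
      rw [funext hθ, classInner_irr_self θ.2]
      exact one_ne_zero
    have hθ' : θ ∈ principalBlock M N ∧ ¬ p ∣ charDegree (θ : N → ℂ) ∧
        (∀ x ∈ (P : Subgroup G), ∀ n : N,
          (θ : N → ℂ) ⟨x * n * x⁻¹, hN.conj_mem n n.2 x⟩ = (θ : N → ℂ) n) ∧
        ∀ n : N, (θ : N → ℂ) (n ^ k) = (θ : N → ℂ) n := by
      refine ⟨Block.constituent_mem_principal hχB hne, ?_, fun x _ n => ?_, fun n => ?_⟩
      · rwa [show charDegree (θ : N → ℂ) = charDegree (χ : G → ℂ) from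
          charDegree_eq_of_apply_one ((hθ 1).symm.trans
            (apply_one_eq_charDegree (isCharacter_of_isIrr χ.2)))]
      · rw [← hθ, ← hθ]
        exact isClassFunction_of_isIrr χ.2 (n : G) x
      · rw [← hθ, ← hθ, Subgroup.coe_pow, hχfix]
    obtain ⟨l, hl, hle⟩ := extension_unique_mul_linear N θ.2 (hE ⟨θ, hθ'⟩) (hEN ⟨θ, hθ'⟩) χ.2 hθ
    have hlp : ∀ g, l g ^ p = 1 := fun g =>
      eq_one_of_twist (hE ⟨θ, hθ'⟩) (hEN ⟨θ, hθ'⟩)
        (ha ▸ (hp.out.coprime_iff_not_dvd.2 hθ'.2.1).pow_left a) ((powMonoidHom p).comp l)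
        (fun n => by simp [hl n]) (fun x => by
          have hx := hχfix x
          rw [hle] at hx
          simp only [hEfix, apply_pow hNres hk₁ l hl, pow_add, pow_one, Units.val_mul,
            mul_assoc] at hx
          exact mul_left_cancel₀ (Units.ne_zero (l x)) hx) g
    refine ⟨(⟨θ, hθ'⟩, ⟨l, hl, hlp⟩), Subtype.ext (Subtype.ext ?_)⟩
    exact hle.symm

end Cfsg.Agent.Lib.CharGaloisOver
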